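import Cfsg.Agent.H357.EP.O8Tab

/-!
# S5745, the kill V27: the `2 ^ 6` of `Ω₈⁺(2)` (helper357)

* `not_inE6_o8` : `PΩ₈⁺(2)` does not embed into `E₆(q)`, `²E₆(q)`, `q` odd.
-/

set_option autoImplicit false

namespace Cfsg.Agent.H357.EP

open Matrix
open scoped commutatorElement

namespace OE

section mat

variable (F : Type*) [Field F] [CharP F 2]

/-- the ring homomorphism -/
def io : Z →+* F := ZMod.castHom (dvd_refl 2) F

/-- the matrix of a Siegel element -/
def uA (A : M4) : Matrix (Fin 4 ⊕ Fin 4) (Fin 4 ⊕ Fin 4) F := fromBlocks 1 (A.map (io F)) 0 1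

/-- the matrix of an element of the Levi subgroup -/
def dA (g : M4) : Matrix (Fin 4 ⊕ Fin 4) (Fin 4 ⊕ Fin 4) F := fromBlocks (g.map (io F)) 0 0 (gᵀ.map (io F))

variable {F}

theorem map_mul' (A B : M4) : (A * B).map (io F) = A.map (io F) * B.map (io F) := Matrix.map_mul

theorem map_add' (A B : M4) : (A + B).map (io F) = A.map (io F) + B.map (io F) := Matrix.map_add _ (map_add _) _ _

theorem map_one' : (1 : M4).map (io F) = 1 := Matrix.map_one _ (map_zero _) (map_one _)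

theorem map_inj' {A B : M4} (h : A.map (io F) = B.map (io F)) : A = B := by
  ext i j
  exact (io F).injective (congrFun (congrFun h i) j)

theorem uA_mul (A B : M4) : uA F A * uA F B = uA F (A + B) := by
  unfold uA
  rw [fromBlocks_multiply, map_add']
  simp [add_comm]

theorem uA_zero : uA F 0 = 1 := by
  unfold uA
  rw [Matrix.map_zero _ (map_zero _), fromBlocks_one]

theorem uA_sq (A : M4) : uA F A * uA F A = 1 := by
  have h : A + A = 0 := by
    ext i j
    exact CharTwo.add_self_eq_zero _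
  rw [uA_mul, h, uA_zero]

theorem dA_sq {g : M4} (hg : g * g = 1) : dA F g * dA F g = 1 := by
  have h : gᵀ * gᵀ = 1 := by rw [← Matrix.transpose_mul, hg, Matrix.transpose_one]
  unfold dA
  rw [fromBlocks_multiply]
  simp only [Matrix.mul_zero, Matrix.zero_mul, add_zero, zero_add]
  rw [← map_mul', ← map_mul', hg, h, map_one', fromBlocks_one]

theorem dA_uA {g : M4} (hg : g * g = 1) (A : M4) : dA F g * uA F A * dA F g = uA F (g * A * gᵀ) := by
  have h : gᵀ * gᵀ = 1 := by rw [← Matrix.transpose_mul, hg, Matrix.transpose_one]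
  unfold dA uA
  rw [fromBlocks_multiply, fromBlocks_multiply]
  simp only [Matrix.mul_zero, Matrix.zero_mul, add_zero, zero_add, mul_one]
  rw [← map_mul', ← map_mul', ← map_mul', ← map_mul', hg, h, map_one']

theorem dA_comm {g h k : M4} (h1 : g * h * (g * h) = k) (h2 : h * g * (h * g) = k) :
    dA F g * dA F h * (dA F g * dA F h) = dA F k := by
  have h3 : gᵀ * hᵀ * (gᵀ * hᵀ) = kᵀ := by
    rw [← h2]
    simp only [Matrix.transpose_mul]
  unfold dA
  rw [fromBlocks_multiply, fromBlocks_multiply]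
  simp only [Matrix.mul_zero, Matrix.zero_mul, add_zero, zero_add]
  rw [← map_mul', ← map_mul', ← map_mul', ← map_mul', h1, h3]

theorem uA_form (a : Fin 6 → Z) (v : Fin 4 ⊕ Fin 4 → F) : quadFormPlus 4 F (uA F (al a) *ᵥ v) = quadFormPlus 4 F v := by
  have h2 : (2 : F) = 0 := CharTwo.two_eq_zero
  unfold quadFormPlus uA
  rw [fromBlocks_mulVec]
  simp only [Sum.elim_inl, Sum.elim_inr, Matrix.one_mulVec, Matrix.zero_mulVec, zero_add, Pi.add_apply,
    Function.comp_apply, Matrix.mulVec, dotProduct, Fin.sum_univ_four, Matrix.map_apply]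
  simp only [al, Matrix.of_apply, Matrix.cons_val', Matrix.cons_val_zero, Matrix.cons_val_one, Matrix.cons_val,
    map_zero, zero_mul, zero_add, add_zero]
  linear_combination (io F (a 0) * v (.inr 0) * v (.inr 1) + io F (a 1) * v (.inr 0) * v (.inr 2) +
    io F (a 2) * v (.inr 0) * v (.inr 3) + io F (a 3) * v (.inr 1) * v (.inr 2) +
    io F (a 4) * v (.inr 1) * v (.inr 3) + io F (a 5) * v (.inr 2) * v (.inr 3)) * h2

theorem dA_form {g : M4} (hg : g * g = 1) (v : Fin 4 ⊕ Fin 4 → F) :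
    quadFormPlus 4 F (dA F g *ᵥ v) = quadFormPlus 4 F v := by
  have h : ∀ w : Fin 4 ⊕ Fin 4 → F, quadFormPlus 4 F w = (w ∘ Sum.inl) ⬝ᵥ (w ∘ Sum.inr) := fun w => rfl
  rw [h, h]
  unfold dA
  rw [fromBlocks_mulVec]
  have e1 : (Sum.elim ((g.map (io F)) *ᵥ (v ∘ Sum.inl) + 0 *ᵥ (v ∘ Sum.inr))
    (0 *ᵥ (v ∘ Sum.inl) + (gᵀ.map (io F)) *ᵥ (v ∘ Sum.inr)) ∘ Sum.inl) = (g.map (io F)) *ᵥ (v ∘ Sum.inl) := by
    rw [Sum.elim_comp_inl, Matrix.zero_mulVec, add_zero]
  have e2 : (Sum.elim ((g.map (io F)) *ᵥ (v ∘ Sum.inl) + 0 *ᵥ (v ∘ Sum.inr))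
    (0 *ᵥ (v ∘ Sum.inl) + (gᵀ.map (io F)) *ᵥ (v ∘ Sum.inr)) ∘ Sum.inr) = (gᵀ.map (io F)) *ᵥ (v ∘ Sum.inr) := by
    rw [Sum.elim_comp_inr, Matrix.zero_mulVec, zero_add]
  rw [e1, e2, Matrix.dotProduct_mulVec]
  have e3 : gᵀ.map (io F) = (g.map (io F))ᵀ := rfl
  rw [e3, Matrix.vecMul_transpose, Matrix.mulVec_mulVec, ← map_mul', hg, map_one', Matrix.one_mulVec]

variable (F)

/-- the isometry `u` -/
def uI (a : Fin 6 → Z) : isometryGroup F (quadFormPlus 4 F) :=
  ⟨⟨uA F (al a), uA F (al a), uA_sq _, uA_sq _⟩, fun v _ => uA_form a v⟩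

/-- the isometry `d` -/
def dI (g : M4) (hg : g * g = 1) : isometryGroup F (quadFormPlus 4 F) :=
  ⟨⟨dA F g, dA F g, dA_sq hg, dA_sq hg⟩, fun v _ => dA_form hg v⟩

variable {F}

theorem al_add (a b : Fin 6 → Z) : al (a + b) = al a + al b := by
  ext i j
  fin_cases i <;> fin_cases j <;> simp [al]

theorem al_inj {a b : Fin 6 → Z} (h : al a = al b) : a = b := by
  funext k
  fin_cases k
  · simpa [al] using congrFun (congrFun h 0) 1
  · simpa [al] using congrFun (congrFun h 0) 2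
  · simpa [al] using congrFun (congrFun h 0) 3
  · simpa [al] using congrFun (congrFun h 1) 2
  · simpa [al] using congrFun (congrFun h 1) 3
  · simpa [al] using congrFun (congrFun h 2) 3

theorem uI_mul (a b : Fin 6 → Z) : uI F a * uI F b = uI F (a + b) := by
  apply Subtype.ext
  apply Units.ext
  show uA F (al a) * uA F (al b) = uA F (al (a + b))
  rw [uA_mul, al_add]

theorem uI_inv (a : Fin 6 → Z) : (uI F a)⁻¹ = uI F a := by
  apply Subtype.ext
  apply Units.ext
  rfl

theorem dI_inv {g : M4} (hg : g * g = 1) : (dI F g hg)⁻¹ = dI F g hg := by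
  apply Subtype.ext
  apply Units.ext
  rfl

theorem uI_inj {a b : Fin 6 → Z} (h : uI F a = uI F b) : a = b := by
  have h1 : uA F (al a) = uA F (al b) := congrArg (fun x : isometryGroup F (quadFormPlus 4 F) =>
    ((x : GL (Fin 4 ⊕ Fin 4) F) : Matrix (Fin 4 ⊕ Fin 4) (Fin 4 ⊕ Fin 4) F)) h
  unfold uA at h1
  rw [fromBlocks_inj] at h1
  exact al_inj (map_inj' h1.2.1)

theorem dI_uI {i j : Fin 4} (hij : i ≠ j) (a : Fin 6 → Z) :
    dI F (T i j) (tab_sq i j hij) * uI F a * (dI F (T i j) (tab_sq i j hij))⁻¹ = uI F (act a (i, j)) := by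
  rw [dI_inv]
  apply Subtype.ext
  apply Units.ext
  show dA F (T i j) * uA F (al a) * dA F (T i j) = uA F (al (act a (i, j)))
  rw [dA_uA (tab_sq i j hij), tab_act a i j hij]

theorem dI_mem {i j : Fin 4} (hij : i ≠ j) : dI F (T i j) (tab_sq i j hij) ∈ Omega F (quadFormPlus 4 F) := by
  obtain ⟨k, hki, hkj, h1, h2⟩ := tab_comm i j hij
  have h3 : dI F (T i j) (tab_sq i j hij) = ⁅dI F (T i k) (tab_sq i k hki.symm), dI F (T k j) (tab_sq k j hkj)⁆ := by
    rw [commutatorElement_def, dI_inv, dI_inv]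
    apply Subtype.ext
    apply Units.ext
    show dA F (T i j) = dA F (T i k) * dA F (T k j) * dA F (T i k) * dA F (T k j)
    rw [Matrix.mul_assoc (dA F (T i k) * dA F (T k j)), dA_comm h1 h2]
  rw [h3]
  exact Subgroup.commutator_mem_commutator (Subgroup.mem_top _) (Subgroup.mem_top _)

/-- a base element is in `Ω` -/
theorem uI_mem_of {i j : Fin 4} (hij : i ≠ j) {a b : Fin 6 → Z} (h : act b (i, j) + b = a) :
    uI F a ∈ Omega F (quadFormPlus 4 F) := by
  have h3 : uI F a = ⁅dI F (T i j) (tab_sq i j hij), uI F b⁆ := by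
    rw [commutatorElement_def, dI_uI hij, uI_inv, uI_mul, h]
  rw [h3]
  exact Subgroup.commutator_mem_commutator (Subgroup.mem_top _) (Subgroup.mem_top _)

theorem base_zero : uI F ![1, 0, 0, 0, 0, 0] ∈ Omega F (quadFormPlus 4 F) :=
  uI_mem_of (i := 0) (j := 2) (by decide) (b := ![0, 0, 0, 1, 0, 0]) (by decide +kernel)

theorem base_one : uI F ![1, 0, 0, 0, 0, 1] ∈ Omega F (quadFormPlus 4 F) := by
  have h1 : uI F ![0, 0, 0, 0, 0, 1] ∈ Omega F (quadFormPlus 4 F) :=
    uI_mem_of (i := 2) (j := 1) (by decide) (b := ![0, 0, 0, 0, 1, 0]) (by decide +kernel)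
  have h2 : uI F ![1, 0, 0, 0, 0, 1] = uI F ![1, 0, 0, 0, 0, 0] * uI F ![0, 0, 0, 0, 0, 1] := by
    rw [uI_mul]
    congr 1
    decide
  rw [h2]
  exact mul_mem base_zero h1

theorem exists_conj (l : List (Fin 4 × Fin 4)) (hl : ∀ p ∈ l, p.1 ≠ p.2) (a : Fin 6 → Z) :
    ∃ k ∈ Omega F (quadFormPlus 4 F), k * uI F a * k⁻¹ = uI F (l.foldl act a) := by
  induction l generalizing a with
  | nil => exact ⟨1, one_mem _, by simp⟩
  | cons p l ih =>
    obtain ⟨k, hk, hka⟩ := ih (fun p hp => hl p (List.mem_cons_of_mem _ hp)) (act a p)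
    have hp := hl p List.mem_cons_self
    refine ⟨k * dI F (T p.1 p.2) (tab_sq _ _ hp), mul_mem hk (dI_mem hp), ?_⟩
    have h1 := dI_uI (F := F) hp a
    rw [List.foldl_cons, ← hka, ← h1]
    group

/-- the base -/
def bs (a : Fin 6 → Z) : Fin 6 → Z := if pf a = 0 then ![1, 0, 0, 0, 0, 0] else ![1, 0, 0, 0, 0, 1]

theorem conj_base {a : Fin 6 → Z} (ha : a ≠ 0) :
    ∃ k ∈ Omega F (quadFormPlus 4 F), k * uI F a * k⁻¹ = uI F (bs a) := by
  obtain ⟨k, hk, h⟩ := exists_conj (F := F) (path.getD (cod a) []) (tab_ne _ (cod_lt a)) a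
  rw [tab_path a ha] at h
  exact ⟨k, hk, h⟩

theorem bs_mem (a : Fin 6 → Z) : uI F (bs a) ∈ Omega F (quadFormPlus 4 F) := by
  unfold bs
  split_ifs
  · exact base_zero
  · exact base_one

theorem uI_zero : uI F 0 = 1 := by
  apply Subtype.ext
  apply Units.ext
  show uA F (al 0) = 1
  rw [show al 0 = 0 from by decide +kernel, uA_zero]

theorem uI_mem (a : Fin 6 → Z) : uI F a ∈ Omega F (quadFormPlus 4 F) := by
  by_cases ha : a = 0
  · rw [ha, uI_zero]; exact one_mem _
  obtain ⟨k, hk, h⟩ := conj_base (F := F) ha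
  have h1 : uI F a = k⁻¹ * uI F (bs a) * k := by rw [← h]; group
  rw [h1]
  exact mul_mem (mul_mem (inv_mem hk) (bs_mem a)) hk

variable (F)

/-- the elementary abelian subgroup of `Ω` -/
def fO : Multiplicative (Fin 6 → Z) →* Omega F (quadFormPlus 4 F) :=
  MonoidHom.mk' (fun x => ⟨uI F x.toAdd, uI_mem _⟩) fun _ _ => Subtype.ext (uI_mul _ _).symm

variable {F}

theorem fO_conj {x : Multiplicative (Fin 6 → Z)} (hx : x ≠ 1) :
    IsConj (fO F (Multiplicative.ofAdd (bs x.toAdd))) (fO F x) := by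
  obtain ⟨k, hk, h⟩ := conj_base (F := F) (a := x.toAdd) (fun e => hx (Multiplicative.toAdd.injective e))
  apply IsConj.symm
  rw [isConj_iff]
  exact ⟨⟨k, hk⟩, Subtype.ext h⟩

theorem fO_center {x : Multiplicative (Fin 6 → Z)} (hx : fO F x ∈ Subgroup.center (Omega F (quadFormPlus 4 F))) :
    x = 1 := by
  by_contra hne
  obtain ⟨i, j, hij, h⟩ := tab_move x.toAdd (fun e => hne (Multiplicative.toAdd.injective e))
  apply h
  have h1 := Subgroup.mem_center_iff.1 hx ⟨_, dI_mem hij⟩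
  have h2 : dI F (T i j) (tab_sq i j hij) * uI F x.toAdd = uI F x.toAdd * dI F (T i j) (tab_sq i j hij) :=
    congrArg Subtype.val h1
  apply uI_inj (F := F)
  rw [← dI_uI hij, h2, mul_inv_cancel_right]

end mat

end OE

/-- **`Ω₈⁺(2)` does not embed into `E₆(q)`, `²E₆(q)`, `q` odd** -/
theorem not_inE6_o8 {F : Type*} [Field F] [CharP F 2] : ¬ InE6 (POmega F (quadFormPlus 4 F)) := by
  intro h
  have hinj : Function.Injective ((QuotientGroup.mk' (Subgroup.center (Omega F (quadFormPlus 4 F)))).comp (OE.fO F)) := by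
    rw [injective_iff_map_eq_one]
    intro x hx
    exact OE.fO_center ((QuotientGroup.eq_one_iff _).1 hx)
  obtain ⟨a, b, m, ha, hb, h1⟩ := h.sum_hom (A := Multiplicative (Fin 6 → OE.Z))
    (fun x => Multiplicative.toAdd.injective (funext fun i => CharTwo.add_self_eq_zero _)) _ hinj
    (fun x => OE.pf x.toAdd = 0)
    (u := QuotientGroup.mk' (Subgroup.center (Omega F (quadFormPlus 4 F)))
      (OE.fO F (Multiplicative.ofAdd ![1, 0, 0, 0, 0, 0])))
    (v := QuotientGroup.mk' (Subgroup.center (Omega F (quadFormPlus 4 F)))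
      (OE.fO F (Multiplicative.ofAdd ![1, 0, 0, 0, 0, 1])))
    (fun x hx hC => by
      have h2 := OE.fO_conj (F := F) hx
      rw [OE.bs, if_pos hC] at h2
      exact MonoidHom.map_isConj _ h2)
    (fun x hx hC => by
      have h2 := OE.fO_conj (F := F) hx
      rw [OE.bs, if_neg hC] at h2
      exact MonoidHom.map_isConj _ h2)
  have h3 : Fintype.card (Multiplicative (Fin 6 → OE.Z)) = 64 := by
    rw [Fintype.card_multiplicative, Fintype.card_fun, ZMod.card, Fintype.card_fin]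
    norm_num
  rw [OE.tab_card.1, OE.tab_card.2, h3] at h1
  rcases ha with rfl | rfl <;> rcases hb with rfl | rfl <;> push_cast at h1 <;> omega

end Cfsg.Agent.H357.EP
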