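import Cfsg.Agent.H357.EP.Pure34

/-!
# S5745, the kill V27: tables for the `2 ^ 6` of `Ω₈⁺(2)` (helper357)

* `InE6.sum_hom` : the sum of the traces;
* the orbits of the transvections of `SL₄(2)` on the alternating matrices.
-/

set_option autoImplicit false

namespace Cfsg.Agent.H357.EP

open Matrix

/-! ### The criterion for homomorphisms -/

/-- the sum of the traces, by two sets of involutions -/
theorem InE6.sum_hom {T : Type*} [Group T] (h : InE6 T) {A : Type*} [Group A] [Fintype A] (hA : ∀ x : A, x * x = 1)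
    (f : A →* T) (hf : Function.Injective f) (C : A → Prop) [DecidablePred C] {u v : T}
    (hC : ∀ x, x ≠ 1 → C x → IsConj u (f x)) (hC' : ∀ x, x ≠ 1 → ¬ C x → IsConj v (f x)) [DecidableEq A] :
    ∃ a b : ℤ, ∃ m : ℕ, (a = 3 ∨ a = -5) ∧ (b = 3 ∨ b = -5) ∧
      27 + a * (Finset.univ.filter fun x : A => x ≠ 1 ∧ C x).card +
        b * (Finset.univ.filter fun x : A => x ≠ 1 ∧ ¬ C x).card = Fintype.card A * (m : ℤ) := by
  classical
  obtain ⟨F, i1, i2, ho, g, hg⟩ := h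
  obtain ⟨β, h1, h2, h3, ⟨m, h4⟩, -⟩ := EP.beta ho (E := A) hA (g.comp f) (hg.comp hf)
  have key : ∀ (D : A → Prop) (w : T), (∀ x, x ≠ 1 → D x → IsConj w (f x)) → ∃ a : ℤ, (a = 3 ∨ a = -5) ∧
      ∀ x, x ≠ 1 → D x → β x = a := by
    intro D w hD
    by_cases hne : ∃ x, x ≠ 1 ∧ D x
    · obtain ⟨x, hx, hxD⟩ := hne
      refine ⟨β x, h2 x hx, fun y hy hyD => h3 y x ?_⟩
      exact MonoidHom.map_isConj g ((hD y hy hyD).symm.trans (hD x hx hxD))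
    · push Not at hne
      exact ⟨3, Or.inl rfl, fun x hx hxD => absurd hxD (hne x hx)⟩
  obtain ⟨a, ha, ha'⟩ := key C u hC
  obtain ⟨b, hb, hb'⟩ := key (fun x => ¬ C x) v hC'
  refine ⟨a, b, m, ha, hb, ?_⟩
  rw [← h4]
  have h6 : ∀ x : A, β x = (if x = 1 then 27 else 0) + (a * (if x ≠ 1 ∧ C x then 1 else 0) +
      b * (if x ≠ 1 ∧ ¬ C x then 1 else 0)) := by
    intro x
    by_cases hx : x = 1
    · simp [hx, h1]
    · by_cases hxC : C x
      · simp [hx, hxC, ha' x hx hxC]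
      · simp [hx, hxC, hb' x hx hxC]
  rw [Finset.sum_congr rfl fun x _ => h6 x, Finset.sum_add_distrib, Finset.sum_add_distrib, ← Finset.mul_sum,
    ← Finset.mul_sum, Finset.sum_ite_eq' Finset.univ (1 : A), if_pos (Finset.mem_univ _), Finset.sum_boole,
    Finset.sum_boole]
  ring

namespace OE

/-! ### Tables over `𝔽₂` -/

abbrev Z := ZMod 2
abbrev M4 := Matrix (Fin 4) (Fin 4) Z

/-- the transvection `1 + e_ij` -/
def T (i j : Fin 4) : M4 := fun x y => (if x = y then 1 else 0) + (if x = i ∧ y = j then 1 else 0)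

/-- the alternating matrix -/
def al (a : Fin 6 → Z) : M4 := !![0, a 0, a 1, a 2; a 0, 0, a 3, a 4; a 1, a 3, 0, a 5; a 2, a 4, a 5, 0]

/-- the Pfaffian -/
def pf (a : Fin 6 → Z) : Z := a 0 * a 5 + a 1 * a 4 + a 2 * a 3

def path : List (List (Fin 4 × Fin 4)) := [[], [], [(1, 2), (2, 1)], [(2, 1)], [(1, 3), (3, 1)], [(3, 1)], [(3, 2), (1, 2), (2, 1)], [(3, 1), (2, 1)],
  [(0, 2), (2, 0)], [(2, 0)], [(0, 2), (0, 1), (2, 0)], [(0, 1), (2, 0)], [(2, 0), (1, 3), (0, 2)],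
  [(2, 0), (0, 2)], [(2, 0), (1, 3), (0, 3), (0, 2)], [(2, 0), (0, 3), (0, 2)], [(0, 3), (3, 0)], [(3, 0)],
  [(2, 1), (1, 2), (0, 3)], [(3, 0), (0, 3)], [(0, 3), (0, 1), (3, 0)], [(0, 1), (3, 0)],
  [(2, 0), (1, 2), (0, 3), (0, 2)], [(3, 0), (0, 3), (0, 2)], [(3, 2), (0, 2), (2, 0)], [(3, 0), (2, 0)],
  [(2, 1), (1, 2), (1, 0), (0, 3)], [(3, 0), (1, 0), (0, 3)], [(2, 0), (1, 3), (1, 0), (0, 2)],
  [(2, 0), (1, 0), (0, 2)], [(3, 2), (0, 2), (0, 1), (2, 0)], [(3, 2), (0, 1), (2, 0)],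
  [(1, 3), (3, 1), (0, 2), (2, 0)], [], [(3, 0), (1, 2), (2, 1)], [(0, 3)], [(1, 3), (3, 1), (2, 0)], [(0, 2)],
  [(1, 3), (3, 1), (0, 1), (2, 0)], [(0, 3), (0, 2)], [(3, 1), (0, 2), (2, 0)], [(1, 3)],
  [(3, 0), (0, 2), (0, 1), (2, 0)], [(1, 0), (0, 3)], [(1, 3), (0, 2)], [(3, 1), (2, 0)],
  [(1, 3), (0, 3), (0, 2)], [(3, 1), (0, 1), (2, 0)], [(0, 3), (3, 0), (2, 1)], [(1, 2)], [(1, 2), (0, 3)],
  [(3, 0), (2, 1)], [(1, 3), (3, 1), (3, 0), (2, 0)], [(1, 0), (0, 2)], [(1, 2), (0, 3), (0, 2)],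
  [(0, 1), (3, 0), (2, 1)], [(0, 3), (3, 0), (0, 1), (2, 0)], [(1, 3), (1, 2)], [(1, 2), (1, 0), (0, 3)],
  [(3, 0), (0, 1), (2, 0)], [(1, 3), (1, 0), (0, 2)], [(3, 1), (3, 0), (2, 0)], [(0, 2), (3, 0), (0, 1), (2, 0)],
  [(1, 0), (0, 3), (0, 2)]]

/-- the code of a vector -/
def cod (a : Fin 6 → Z) : ℕ := (a 0).val + 2 * (a 1).val + 4 * (a 2).val + 8 * (a 3).val + 16 * (a 4).val +
  32 * (a 5).val

/-- the coordinates of an alternating matrix -/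
def coo (A : M4) : Fin 6 → Z := ![A 0 1, A 0 2, A 0 3, A 1 2, A 1 3, A 2 3]

/-- the action of the transvection -/
def act (a : Fin 6 → Z) (p : Fin 4 × Fin 4) : Fin 6 → Z := coo (T p.1 p.2 * al a * (T p.1 p.2)ᵀ)

set_option maxRecDepth 100000 in
theorem tab_act0 : ∀ a : Fin 6 → Z, ∀ j : Fin 4, 0 ≠ j → T 0 j * al a * (T 0 j)ᵀ = al (act a (0, j)) := by
  decide +kernel

set_option maxRecDepth 100000 in
theorem tab_act1 : ∀ a : Fin 6 → Z, ∀ j : Fin 4, 1 ≠ j → T 1 j * al a * (T 1 j)ᵀ = al (act a (1, j)) := by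
  decide +kernel

set_option maxRecDepth 100000 in
theorem tab_act2 : ∀ a : Fin 6 → Z, ∀ j : Fin 4, 2 ≠ j → T 2 j * al a * (T 2 j)ᵀ = al (act a (2, j)) := by
  decide +kernel

set_option maxRecDepth 100000 in
theorem tab_act3 : ∀ a : Fin 6 → Z, ∀ j : Fin 4, 3 ≠ j → T 3 j * al a * (T 3 j)ᵀ = al (act a (3, j)) := by
  decide +kernel

theorem tab_act : ∀ a : Fin 6 → Z, ∀ i j : Fin 4, i ≠ j → T i j * al a * (T i j)ᵀ = al (act a (i, j))
  | a, 0, j, h => tab_act0 a j h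
  | a, 1, j, h => tab_act1 a j h
  | a, 2, j, h => tab_act2 a j h
  | a, 3, j, h => tab_act3 a j h

set_option maxRecDepth 100000 in
theorem tab_path : ∀ a : Fin 6 → Z, a ≠ 0 → (path.getD (cod a) []).foldl act a =
    if pf a = 0 then ![1, 0, 0, 0, 0, 0] else ![1, 0, 0, 0, 0, 1] := by
  decide +kernel

theorem tab_ne : ∀ n < 64, ∀ p ∈ path.getD n [], p.1 ≠ p.2 := by decide +kernel

theorem cod_lt : ∀ a : Fin 6 → Z, cod a < 64 := by decide +kernel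

theorem tab_comm : ∀ i j : Fin 4, i ≠ j → ∃ k, k ≠ i ∧ k ≠ j ∧ T i k * T k j * (T i k * T k j) = T i j ∧
    T k j * T i k * (T k j * T i k) = T i j := by decide +kernel

theorem tab_sq : ∀ i j : Fin 4, i ≠ j → T i j * T i j = 1 := by decide +kernel

theorem tab_move : ∀ a : Fin 6 → Z, a ≠ 0 → ∃ i j : Fin 4, i ≠ j ∧ act a (i, j) ≠ a := by decide +kernel

theorem tab_card : (Finset.univ.filter fun x : Multiplicative (Fin 6 → Z) => x ≠ 1 ∧ pf x.toAdd = 0).card = 35 ∧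
    (Finset.univ.filter fun x : Multiplicative (Fin 6 → Z) => x ≠ 1 ∧ ¬ pf x.toAdd = 0).card = 28 := by
  decide +kernel

end OE

end Cfsg.Agent.H357.EP
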