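import Cfsg.Agent.H357.EP.Inv27

/-!
# S5745, the kill V27: a pure `2 ^ 4` in `SL₃(4)` (helper357)

* `not_inE6_hom` : no homomorphism `SL₃(4) → T` that is not trivial on the transvections if `T` embeds into `E₆(q)`, `q` odd.
-/

set_option autoImplicit false

namespace Cfsg.Agent.H357.EP

open Matrix

section

variable {F : Type*} [Field F]

/-- the matrix with first row `1, a, b` -/
def tau (a b : F) : SpecialLinearGroup (Fin 3) F :=
  ⟨!![1, a, b; 0, 1, 0; 0, 0, 1], by simp [Matrix.det_fin_three]⟩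

theorem tau_mul (a b c d : F) : tau a b * tau c d = tau (a + c) (b + d) := by
  apply Subtype.ext
  show (!![1, a, b; 0, 1, 0; 0, 0, 1] : Matrix (Fin 3) (Fin 3) F) * !![1, c, d; 0, 1, 0; 0, 0, 1] = _
  ext i j
  fin_cases i <;> fin_cases j <;> simp [tau, Matrix.mul_apply, Fin.sum_univ_three, add_comm]

theorem tau_inj {a b c d : F} (h : tau a b = tau c d) : a = c ∧ b = d := by
  have h1 := congrArg Subtype.val h
  exact ⟨by simpa [tau] using congrFun (congrFun h1 0) 1, by simpa [tau] using congrFun (congrFun h1 0) 2⟩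

theorem tau_zero : tau (0 : F) 0 = 1 := by
  apply Subtype.ext
  ext i j
  fin_cases i <;> fin_cases j <;> simp [tau]

/-- the matrix `diag (1, [[p, -b], [s, a]])` -/
def gm (a b p s : F) (h : a * p + b * s = 1) : SpecialLinearGroup (Fin 3) F :=
  ⟨!![1, 0, 0; 0, p, -b; 0, s, a], by rw [Matrix.det_fin_three]; simp; linear_combination h⟩

theorem gm_mul (a b p s : F) (h : a * p + b * s = 1) : gm a b p s h * tau 1 0 = tau a b * gm a b p s h := by
  apply Subtype.ext
  show (!![1, 0, 0; 0, p, -b; 0, s, a] : Matrix (Fin 3) (Fin 3) F) * !![1, 1, 0; 0, 1, 0; 0, 0, 1] =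
    !![1, a, b; 0, 1, 0; 0, 0, 1] * !![1, 0, 0; 0, p, -b; 0, s, a]
  ext i j
  fin_cases i <;> fin_cases j <;> simp [Matrix.mul_apply, Fin.sum_univ_three, h]
  ring

theorem tau_conj {a b : F} (h : a ≠ 0 ∨ b ≠ 0) : IsConj (tau (1 : F) 0) (tau a b) := by
  obtain ⟨p, s, hps⟩ : ∃ p s : F, a * p + b * s = 1 := by
    rcases h with h | h
    · exact ⟨a⁻¹, 0, by rw [mul_inv_cancel₀ h, mul_zero, add_zero]⟩
    · exact ⟨0, b⁻¹, by rw [mul_inv_cancel₀ h, mul_zero, zero_add]⟩
  rw [isConj_iff]
  refine ⟨gm a b p s hps, ?_⟩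
  rw [gm_mul, mul_inv_cancel_right]

/-- the subgroup of all `tau a b` -/
def tauHom (F : Type*) [Field F] : Multiplicative (F × F) →* SpecialLinearGroup (Fin 3) F :=
  MonoidHom.mk' (fun v => tau v.toAdd.1 v.toAdd.2) fun v w => by
    rw [tau_mul]
    rfl

theorem tauHom_inj : Function.Injective (tauHom F) := by
  intro v w h
  obtain ⟨h1, h2⟩ := tau_inj h
  exact Multiplicative.toAdd.injective (Prod.ext h1 h2)

end

/-- **pure `2 ^ 4`, general form**: an elementary abelian group of order `16` with a homomorphism to `T` all of whose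
non-trivial values are conjugate -/
theorem InE6.no_pure_hom {T : Type*} [Group T] (h : InE6 T) {A : Type*} [Group A] (hA : ∀ x : A, x * x = 1)
    (hc : Nat.card A = 16) (f : A →* T) (hf : Function.Injective f) {u : T} (hu : ∀ x, x ≠ 1 → IsConj u (f x)) :
    False := by
  refine h.no_pure f.range (u := u) ?_ ?_ ?_
  · rintro _ ⟨x, rfl⟩
    rw [← map_mul, hA, map_one]
  · rw [← hc]
    exact (Nat.card_congr (MonoidHom.ofInjective hf).toEquiv).symm
  · rintro _ ⟨x, rfl⟩ hx
    exact hu x fun e => hx (by rw [e, map_one])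

/-- **no `SL₃(4)` in `E₆(q)`, `q` odd** -/
theorem InE6.no_sl34 {T : Type*} [Group T] (h : InE6 T) {F : Type*} [Field F] [Finite F] (hF : Nat.card F = 4)
    (f : SpecialLinearGroup (Fin 3) F →* T) (hf : f (tau 1 0) ≠ 1) : False := by
  have := Fintype.ofFinite F
  have hF' : Fintype.card F = 4 := by rw [← Nat.card_eq_fintype_card, hF]
  have h2 : (2 : F) = 0 := by
    have h4 : ((4 : ℕ) : F) = 0 := by rw [← hF']; exact Nat.cast_card_eq_zero F
    have : (2 : F) * 2 = 0 := by norm_num at h4 ⊢; exact_mod_cast h4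
    exact mul_self_eq_zero.1 this
  have hadd : ∀ a : F, a + a = 0 := fun a => by rw [← two_mul, h2, zero_mul]
  have hconj : ∀ v : Multiplicative (F × F), v ≠ 1 → IsConj (f (tau 1 0)) (f (tauHom F v)) := by
    intro v hv
    apply MonoidHom.map_isConj
    apply tau_conj
    by_contra hcon
    push Not at hcon
    exact hv (Multiplicative.toAdd.injective (Prod.ext hcon.1 hcon.2))
  refine h.no_pure_hom (A := Multiplicative (F × F)) ?_ ?_ (f.comp (tauHom F)) ?_ hconj
  · intro x
    apply Multiplicative.toAdd.injective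
    exact Prod.ext (hadd _) (hadd _)
  · rw [Nat.card_congr Multiplicative.toAdd, Nat.card_prod, hF]
  · rw [injective_iff_map_eq_one]
    intro v hv
    by_contra hne
    have h1 := hconj v hne
    have h3 : f (tauHom F v) = 1 := hv
    rw [h3, isConj_one_left] at h1
    exact hf h1

end Cfsg.Agent.H357.EP
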