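import Mathlib

/-!
# Elementary abelian 2-groups of matrices in odd characteristic: signs (helper357, for S5745)

* `exists_diag` : commuting involutions have a common eigenbasis;
* `exists_signs` : for `φ : E →* GL ι F`, `E` elementary abelian, there are `χ : κ → E → ℤ`, `|κ| = |ι|`, with values `±1`,
  multiplicative, such that the rank of `φ x - 1` is the number of `i` with `χ i x = -1`;
* `sum_beta`, `sum_sq` : the sums of `n - 2 rank (φ x - 1)` and of its square over `E`.
-/

set_option autoImplicit false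

namespace Cfsg.Agent.H357.EP

open Module

section diag

universe u v

variable {F : Type u} [Field F] {E : Type*}

theorem exists_diag (h2 : (2 : F) ≠ 0) (n : ℕ) : ∀ (V : Type v) [AddCommGroup V] [Module F V] [FiniteDimensional F V],
    finrank F V = n → ∀ f : E → V →ₗ[F] V, (∀ x v, f x (f x v) = v) → (∀ x y v, f x (f y v) = f y (f x v)) →
    ∃ (κ : Type) (_ : Fintype κ) (b : Basis κ F V) (s : κ → E → Bool),
      ∀ i x, f x (b i) = (if s i x then (-1 : F) else 1) • b i := by
  induction n using Nat.strong_induction_on with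
  | _ n ih =>
  intro V _ _ _ hn f hf hc
  classical
  by_cases hsc : ∀ x, (∀ v, f x v = v) ∨ ∀ v, f x v = -v
  · refine ⟨Fin n, inferInstance, finBasisOfFinrankEq F V hn, fun _ x => decide (¬ ∀ v, f x v = v), ?_⟩
    intro i x
    by_cases hx : ∀ v, f x v = v
    · rw [if_neg (by simpa using hx), one_smul, hx]
    · rw [if_pos (by simpa using hx), neg_smul, one_smul]
      exact (hsc x).resolve_left hx _
  push Not at hsc
  obtain ⟨x, ⟨v1, hv1⟩, v2, hv2⟩ := hsc
  set P : Submodule F V := LinearMap.ker (f x - LinearMap.id) with hP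
  set M : Submodule F V := LinearMap.ker (f x + LinearMap.id) with hM
  have mP : ∀ v, v ∈ P ↔ f x v = v := fun v => by
    rw [hP, LinearMap.mem_ker, LinearMap.sub_apply, LinearMap.id_apply, sub_eq_zero]
  have mM : ∀ v, v ∈ M ↔ f x v = -v := fun v => by
    rw [hM, LinearMap.mem_ker, LinearMap.add_apply, LinearMap.id_apply, add_eq_zero_iff_eq_neg]
  have hcompl : IsCompl P M := by
    constructor
    · rw [Submodule.disjoint_def]
      intro v h1 h2'
      rw [mP] at h1
      rw [mM, h1] at h2'
      have h3 : (2 : F) • v = 0 := by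
        rw [two_smul]
        nth_rewrite 1 [h2']
        exact neg_add_cancel v
      exact (smul_eq_zero.1 h3).resolve_left h2
    · rw [codisjoint_iff, eq_top_iff]
      intro v _
      have e : v = (2 : F)⁻¹ • (v + f x v) + (2 : F)⁻¹ • (v - f x v) := by
        rw [← smul_add, add_add_sub_cancel, ← two_smul F v, smul_smul, inv_mul_cancel₀ h2, one_smul]
      rw [e]
      refine Submodule.add_mem_sup (P.smul_mem _ ?_) (M.smul_mem _ ?_)
      · rw [mP, map_add, hf, add_comm]
      · rw [mM, map_sub, hf, neg_sub]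
  have hPne : P ≠ ⊤ := fun h => hv1 ((mP v1).1 (h ▸ Submodule.mem_top))
  have hMne : M ≠ ⊤ := fun h => hv2 ((mM v2).1 (h ▸ Submodule.mem_top))
  have hPlt : finrank F P < n := hn ▸ Submodule.finrank_lt hPne
  have hMlt : finrank F M < n := hn ▸ Submodule.finrank_lt hMne
  have iP : ∀ y, ∀ v ∈ P, f y v ∈ P := fun y v hv => by
    rw [mP] at hv ⊢
    rw [hc, hv]
  have iM : ∀ y, ∀ v ∈ M, f y v ∈ M := fun y v hv => by
    rw [mM] at hv ⊢
    rw [hc, hv, map_neg]
  obtain ⟨κ1, i1, b1, s1, h1⟩ := ih _ hPlt P rfl (fun y => (f y).restrict (iP y)) (fun y v => Subtype.ext (hf y v))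
    (fun y z v => Subtype.ext (hc y z v))
  obtain ⟨κ2, i2, b2, s2, h2'⟩ := ih _ hMlt M rfl (fun y => (f y).restrict (iM y)) (fun y v => Subtype.ext (hf y v))
    (fun y z v => Subtype.ext (hc y z v))
  refine ⟨κ1 ⊕ κ2, inferInstance, (b1.prod b2).map (Submodule.prodEquivOfIsCompl P M hcompl),
    Sum.elim s1 s2, ?_⟩
  rintro (i | i) y
  · have h3 : ((b1.prod b2).map (Submodule.prodEquivOfIsCompl P M hcompl)) (Sum.inl i) = (b1 i : V) := by
      simp
    rw [h3]
    exact congrArg Subtype.val (h1 i y)
  · have h3 : ((b1.prod b2).map (Submodule.prodEquivOfIsCompl P M hcompl)) (Sum.inr i) = (b2 i : V) := by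
      simp
    rw [h3]
    exact congrArg Subtype.val (h2' i y)

end diag

section signs

variable {F : Type*} [Field F] {E : Type*} [Group E] {ι : Type*} [Fintype ι] [DecidableEq ι]

theorem exists_signs (h2 : (2 : F) ≠ 0) (hE : ∀ x : E, x * x = 1) (φ : E →* Matrix.GeneralLinearGroup ι F) :
    ∃ (κ : Type) (_ : Fintype κ) (χ : κ → E → ℤ), Fintype.card κ = Fintype.card ι ∧
      (∀ i x, χ i x = 1 ∨ χ i x = -1) ∧ (∀ i x y, χ i (x * y) = χ i x * χ i y) ∧
      ∀ x, ((Fintype.card ι : ℤ) - 2 * (((φ x : Matrix ι ι F) - 1).rank : ℤ)) = ∑ i, χ i x := by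
  classical
  have hcomm : ∀ x y : E, x * y = y * x := by
    intro x y
    have h1 : (x * y)⁻¹ = x * y := inv_eq_of_mul_eq_one_right (hE (x * y))
    rw [mul_inv_rev, inv_eq_of_mul_eq_one_right (hE x), inv_eq_of_mul_eq_one_right (hE y)] at h1
    exact h1.symm
  obtain ⟨κ, iκ, b, s, hs⟩ := exists_diag (E := E) h2 (finrank F (ι → F)) (ι → F) rfl
    (fun x => Matrix.toLin' (φ x : Matrix ι ι F))
    (fun x v => by
      rw [Matrix.toLin'_apply, Matrix.toLin'_apply, Matrix.mulVec_mulVec, ← Units.val_mul, ← map_mul, hE, map_one,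
        Units.val_one, Matrix.one_mulVec])
    (fun x y v => by
      rw [Matrix.toLin'_apply, Matrix.toLin'_apply, Matrix.toLin'_apply, Matrix.toLin'_apply, Matrix.mulVec_mulVec,
        Matrix.mulVec_mulVec, ← Units.val_mul, ← Units.val_mul, ← map_mul, ← map_mul, hcomm])
  have hne : (-1 : F) ≠ 1 := by
    intro h
    apply h2
    rw [← one_add_one_eq_two]
    nth_rewrite 1 [← h]
    exact neg_add_cancel 1
  have hxor : ∀ i x y, s i (x * y) = (s i x ^^ s i y) := by
    intro i x y
    have h1 := hs i (x * y)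
    have h3 : Matrix.toLin' (φ (x * y) : Matrix ι ι F) (b i) =
        Matrix.toLin' (φ x : Matrix ι ι F) (Matrix.toLin' (φ y : Matrix ι ι F) (b i)) := by
      rw [Matrix.toLin'_apply, Matrix.toLin'_apply, Matrix.toLin'_apply, Matrix.mulVec_mulVec, ← Units.val_mul, map_mul]
    rw [h3, hs i y, map_smul, hs i x, smul_smul] at h1
    have h4 := smul_left_injective F (b.ne_zero i) h1
    rcases hx : s i x with _ | _ <;> rcases hy : s i y with _ | _ <;> rcases hxy : s i (x * y) with _ | _ <;>
      simp [hx, hy, hxy, hne, hne.symm] at h4 ⊢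
  refine ⟨κ, iκ, fun i x => if s i x then -1 else 1, ?_, ?_, ?_, ?_⟩
  · rw [← finrank_eq_card_basis b, Module.finrank_fintype_fun_eq_card]
  · intro i x
    by_cases h : s i x
    · right; simp [h]
    · left; simp [h]
  · intro i x y
    dsimp only
    rw [hxor]
    rcases hx : s i x with _ | _ <;> rcases hy : s i y with _ | _ <;> simp
  · intro x
    have hr : ((φ x : Matrix ι ι F) - 1).rank = (Finset.univ.filter fun i => s i x = true).card := by
      have h1 : LinearMap.toMatrix b b (Matrix.toLin' ((φ x : Matrix ι ι F) - 1)) =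
          Matrix.diagonal fun i => if s i x then (-2 : F) else 0 := by
        ext i j
        rw [LinearMap.toMatrix_apply, map_sub, LinearMap.sub_apply, hs j x, Matrix.toLin'_one, LinearMap.id_apply]
        rw [map_sub, map_smul, Basis.repr_self]
        by_cases hij : i = j
        · subst hij
          rw [Matrix.diagonal_apply_eq]
          rcases hx : s i x with _ | _
          · simp
          · simp
            norm_num
        · rw [Matrix.diagonal_apply_ne _ hij]
          by_cases hx : s j x <;> simp [hx, Finsupp.single_apply, Ne.symm hij]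
      have h3 : ((φ x : Matrix ι ι F) - 1).rank = (LinearMap.toMatrix b b (Matrix.toLin' ((φ x : Matrix ι ι F) - 1))).rank := by
        rw [Matrix.rank_eq_finrank_range_toLin _ b b, Matrix.toLin_toMatrix]
        rfl
      rw [h3, h1, Matrix.rank_diagonal, Fintype.card_subtype]
      congr 1
      ext i
      rcases hx : s i x with _ | _
      · simp [hx]
      · simp [hx, h2]
    have hcard : (Fintype.card ι : ℤ) = ∑ i : κ, (1 : ℤ) := by
      rw [← Module.finrank_fintype_fun_eq_card F, finrank_eq_card_basis b]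
      simp
    rw [hr, hcard, Finset.card_filter]
    push_cast
    rw [Finset.mul_sum, ← Finset.sum_sub_distrib]
    apply Finset.sum_congr rfl
    intro i _
    by_cases h : s i x
    · simp [h]
    · simp [h]

end signs

/-! ### Sums -/

section sums

variable {E : Type*} [Group E] [Fintype E] {κ : Type*} [Fintype κ]

/-- the sum of a sign character -/
theorem sum_chi {χ : E → ℤ} (h1 : ∀ x, χ x = 1 ∨ χ x = -1) (hm : ∀ x y, χ (x * y) = χ x * χ y) :
    ∑ x, χ x = Fintype.card E ∨ ∑ x, χ x = 0 := by
  by_cases h : ∀ x, χ x = 1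
  · left
    simp [h]
  · right
    push Not at h
    obtain ⟨y, hy⟩ := h
    have hy' : χ y = -1 := (h1 y).resolve_left hy
    have h2 : ∑ x, χ x = ∑ x, χ (y * x) := (Equiv.sum_comp (Equiv.mulLeft y) χ).symm
    simp only [hm, hy', neg_mul, one_mul, Finset.sum_neg_distrib] at h2
    omega

theorem sum_beta {χ : κ → E → ℤ} (h1 : ∀ i x, χ i x = 1 ∨ χ i x = -1) (hm : ∀ i x y, χ i (x * y) = χ i x * χ i y) :
    ∃ m : ℕ, ∑ x, ∑ i, χ i x = Fintype.card E * (m : ℤ) := by
  classical
  refine ⟨(Finset.univ.filter fun i => ∑ x, χ i x = Fintype.card E).card, ?_⟩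
  rw [Finset.sum_comm, Finset.card_filter]
  push_cast
  rw [Finset.mul_sum]
  apply Finset.sum_congr rfl
  intro i _
  rcases sum_chi (h1 i) (hm i) with h | h
  · rw [if_pos h, h, mul_one]
  · rw [h, if_neg, mul_zero]
    have := Fintype.card_pos (α := E)
    omega

theorem sum_sq {χ : κ → E → ℤ} (h1 : ∀ i x, χ i x = 1 ∨ χ i x = -1) (hm : ∀ i x y, χ i (x * y) = χ i x * χ i y) :
    (Fintype.card κ : ℤ) * Fintype.card E ≤ ∑ x, (∑ i, χ i x) ^ 2 := by
  classical
  have h2 : ∑ x, (∑ i, χ i x) ^ 2 = ∑ i, ∑ j, ∑ x, χ i x * χ j x := by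
    simp_rw [sq, Finset.sum_mul_sum]
    rw [Finset.sum_comm]
    apply Finset.sum_congr rfl
    intro i _
    rw [Finset.sum_comm]
  rw [h2]
  have h3 : (Fintype.card κ : ℤ) * Fintype.card E = ∑ _i : κ, (Fintype.card E : ℤ) := by simp
  rw [h3]
  apply Finset.sum_le_sum
  intro i _
  have h4 : ∀ j, 0 ≤ ∑ x, χ i x * χ j x := by
    intro j
    rcases sum_chi (χ := fun x => χ i x * χ j x) (fun x => by
      rcases h1 i x with h | h <;> rcases h1 j x with h' | h' <;> simp [h, h']) (fun x y => by
      simp only [hm]; ring) with h | h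
    · rw [h]; positivity
    · exact h.ge
  have h5 : ∑ x, χ i x * χ i x = Fintype.card E := by
    have : ∀ x, χ i x * χ i x = 1 := fun x => by rcases h1 i x with h | h <;> simp [h]
    simp [this]
  calc (Fintype.card E : ℤ) = ∑ x, χ i x * χ i x := h5.symm
    _ ≤ ∑ j, ∑ x, χ i x * χ j x := Finset.single_le_sum (fun j _ => h4 j) (Finset.mem_univ i)

end sums

end Cfsg.Agent.H357.EP
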