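import Cfsg.Agent.H357.EP.Inv27
import Cfsg.Agent.LieClassical.SUBasic

/-!
# S5745, the kill V27: a `2 ^ 7` in `U₆(2)` (helper357)

* `not_inE6_psu6` : `PSU₆(2)` does not embed into `E₆(q)`, `²E₆(q)`, `q` odd.
-/

set_option autoImplicit false

namespace Cfsg.Agent.H357.EP

open Matrix

section

variable {F : Type*} [Field F]

/-- the 6 × 3 matrix of a totally isotropic basis -/
def Bm (F : Type*) [Field F] : Matrix (Fin 6) (Fin 3) F := !![1, 0, 0; 1, 0, 0; 0, 1, 0; 0, 1, 0; 0, 0, 1; 0, 0, 1]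

/-- Hermitian matrices -/
def hm (a b c t : F) : Matrix (Fin 3) (Fin 3) F := !![t, a, b; a ^ 2, 0, c; b ^ 2, c ^ 2, 0]

theorem BtB (h2 : (2 : F) = 0) : (Bm F)ᵀ * Bm F = 0 := by
  have h : (1 : F) + 1 = 0 := by rw [one_add_one_eq_two, h2]
  ext i j
  fin_cases i <;> fin_cases j <;> simp [Bm, Matrix.mul_apply, Fin.sum_univ_six, h]

/-- the unipotent matrix -/
def um (H : Matrix (Fin 3) (Fin 3) F) : Matrix (Fin 6) (Fin 6) F := 1 + Bm F * H * (Bm F)ᵀ

theorem um_mul (h2 : (2 : F) = 0) (H K : Matrix (Fin 3) (Fin 3) F) : um H * um K = um (H + K) := by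
  have h : Bm F * H * (Bm F)ᵀ * (Bm F * K * (Bm F)ᵀ) = 0 := by
    calc _ = Bm F * H * ((Bm F)ᵀ * Bm F) * K * (Bm F)ᵀ := by simp only [Matrix.mul_assoc]
      _ = 0 := by rw [BtB h2, Matrix.mul_zero, Matrix.zero_mul, Matrix.zero_mul]
  unfold um
  rw [Matrix.add_mul, Matrix.mul_add, Matrix.mul_add, h, Matrix.mul_add, Matrix.add_mul]
  simp only [one_mul, mul_one, add_zero]
  abel

theorem um_zero : um (0 : Matrix (Fin 3) (Fin 3) F) = 1 := by
  unfold um; rw [Matrix.mul_zero, Matrix.zero_mul, add_zero]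

theorem um_sq (h2 : (2 : F) = 0) (H : Matrix (Fin 3) (Fin 3) F) : um H * um H = 1 := by
  rw [um_mul h2, ← two_smul F, h2, zero_smul, um_zero]

theorem um_det (h2 : (2 : F) = 0) (H : Matrix (Fin 3) (Fin 3) F) : (um H).det = 1 := by
  have h := congrArg Matrix.det (um_sq h2 H)
  rw [Matrix.det_mul, Matrix.det_one] at h
  have h3 : ((um H).det - 1) * ((um H).det - 1) = 0 := by linear_combination h + (1 - (um H).det) * h2
  exact sub_eq_zero.1 (mul_self_eq_zero.1 h3)

theorem um_form [CharP F 2] (h2 : (2 : F) = 0) {H : Matrix (Fin 3) (Fin 3) F} (hH : H.map (fun x => x ^ 2) = Hᵀ)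
    (u v : Fin 6 → F) : hermForm 6 F 2 (um H *ᵥ u) (um H *ᵥ v) = hermForm 6 F 2 u v := by
  have hf : ∀ u v : Fin 6 → F, hermForm 6 F 2 u v = u ⬝ᵥ (fun i => v i ^ 2) := fun u v => rfl
  have hm : ∀ (M : Matrix (Fin 6) (Fin 6) F) (v : Fin 6 → F), (fun i => (M *ᵥ v) i ^ 2) =
      M.map (fun x => x ^ 2) *ᵥ (fun i => v i ^ 2) := by
    intro M v
    funext i
    rw [Matrix.mulVec, Matrix.mulVec, dotProduct, dotProduct, sum_pow_char]
    simp [mul_pow]
  have hs : (um H).map (fun x => x ^ 2) = um (Hᵀ) := by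
    have h3 : (um H).map (frobenius F 2) = um (H.map (frobenius F 2)) := by
      unfold um
      rw [Matrix.map_add _ (map_add _), Matrix.map_mul, Matrix.map_mul, Matrix.map_one _ (map_zero _) (map_one _)]
      have h4 : (Bm F).map (frobenius F 2) = Bm F := by
        ext i j
        fin_cases i <;> fin_cases j <;> simp [Bm]
      have h5 : ((Bm F)ᵀ).map (frobenius F 2) = (Bm F)ᵀ := congrArg Matrix.transpose h4
      rw [h4, h5]
    have h6 : H.map (frobenius F 2) = Hᵀ := hH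
    rw [h6] at h3
    exact h3
  have ht : (um H)ᵀ = um (Hᵀ) := by
    unfold um
    rw [Matrix.transpose_add, Matrix.transpose_one, Matrix.transpose_mul, Matrix.transpose_mul,
      Matrix.transpose_transpose, Matrix.mul_assoc]
  rw [hf, hf, hm, hs, Matrix.dotProduct_mulVec, ← Matrix.vecMul_transpose, Matrix.vecMul_vecMul, ht, um_sq h2,
    Matrix.vecMul_one]

/-- the entries of `um (hm a b c t)` -/
theorem um_hm (a b c t : F) : um (hm a b c t) 0 1 = t ∧ um (hm a b c t) 0 2 = a ∧ um (hm a b c t) 0 4 = b ∧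
    um (hm a b c t) 2 4 = c := by
  refine ⟨?_, ?_, ?_, ?_⟩ <;>
  · rw [um, Matrix.add_apply, Matrix.mul_apply, Fin.sum_univ_three, Matrix.mul_apply, Matrix.mul_apply,
      Matrix.mul_apply, Fin.sum_univ_three, Fin.sum_univ_three, Fin.sum_univ_three]
    simp [hm, Bm]

end

/-- **`U₆(2)` does not embed into `E₆(q)`, `²E₆(q)`, `q` odd** -/
theorem not_inE6_psu6 {F : Type} [Field F] [Fintype F] (hF : Fintype.card F = 4) : ¬ InE6 (PSU 6 F 2) := by
  classical
  intro h
  have h2 : (2 : F) = 0 := by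
    have h4 : ((4 : ℕ) : F) = 0 := by rw [← hF]; exact Nat.cast_card_eq_zero F
    have : (2 : F) * 2 = 0 := by norm_num at h4 ⊢; exact_mod_cast h4
    exact mul_self_eq_zero.1 this
  have : CharP F 2 := CharTwo.of_one_ne_zero_of_two_eq_zero one_ne_zero h2
  have h4 : ∀ x : F, (x ^ 2) ^ 2 = x := fun x => by
    rw [← pow_mul, show 2 * 2 = Fintype.card F by rw [hF]]
    exact FiniteField.pow_card x
  let ι : ZMod 2 →+* F := ZMod.castHom (dvd_refl 2) F
  have hι : ∀ t, ι t ^ 2 = ι t := by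
    intro t
    rw [← map_pow]
    congr 1
    revert t
    decide
  let A := Multiplicative (F × F × F × ZMod 2)
  let Hm : A → Matrix (Fin 3) (Fin 3) F := fun x => hm x.toAdd.1 x.toAdd.2.1 x.toAdd.2.2.1 (ι x.toAdd.2.2.2)
  have hH : ∀ x, (Hm x).map (fun x => x ^ 2) = (Hm x)ᵀ := by
    intro x
    ext i j
    fin_cases i <;> fin_cases j <;> simp [Hm, hm, h4, hι]
  have hadd : ∀ x y, Hm (x * y) = Hm x + Hm y := by
    intro x y
    show hm (x.toAdd.1 + y.toAdd.1) (x.toAdd.2.1 + y.toAdd.2.1) (x.toAdd.2.2.1 + y.toAdd.2.2.1)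
      (ι (x.toAdd.2.2.2 + y.toAdd.2.2.2)) = hm _ _ _ _ + hm _ _ _ _
    ext i j
    fin_cases i <;> fin_cases j <;> simp [hm, CharTwo.add_sq]
  let f : A →* SU 6 F 2 := MonoidHom.mk' (fun x => ⟨⟨um (Hm x), um_det h2 _⟩, um_form h2 (hH x)⟩) (by
    intro x y
    apply Subtype.ext
    apply Subtype.ext
    show um (Hm (x * y)) = um (Hm x) * um (Hm y)
    rw [um_mul h2, hadd])
  have hinj : Function.Injective ((QuotientGroup.mk' (Subgroup.center (SU 6 F 2))).comp f) := by
    rw [injective_iff_map_eq_one]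
    intro x hx
    have h5 : f x ∈ Subgroup.center (SU 6 F 2) := (QuotientGroup.eq_one_iff _).1 hx
    obtain ⟨r, hr, hr', h6⟩ := (Cfsg.Agent.LieClassical.SUBasic.mem_center_SU_iff (n := 6) (q := 2)
      (by rw [hF]; norm_num) (by norm_num) (f x)).1 h5
    have h7 : um (Hm x) = Matrix.diagonal fun _ => r := by
      have h8 : um (Hm x) = ((f x : SpecialLinearGroup (Fin 6) F) : Matrix (Fin 6) (Fin 6) F) := rfl
      rw [h8, h6]
      exact Cfsg.Agent.LieClassical.SUBasic.coe_suScalar 2 r hr hr'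
    obtain ⟨e1, e2, e3, e4⟩ := um_hm x.toAdd.1 x.toAdd.2.1 x.toAdd.2.2.1 (ι x.toAdd.2.2.2)
    change um (Hm x) 0 1 = _ at e1
    change um (Hm x) 0 2 = _ at e2
    change um (Hm x) 0 4 = _ at e3
    change um (Hm x) 2 4 = _ at e4
    rw [h7, Matrix.diagonal_apply_ne _ (by decide)] at e1 e2 e3 e4
    apply Multiplicative.toAdd.injective
    refine Prod.ext e2.symm (Prod.ext e3.symm (Prod.ext e4.symm ?_))
    apply ι.injective
    rw [← e1]
    exact (map_zero ι).symm
  have hA : Nat.card A = 128 := by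
    rw [Nat.card_congr Multiplicative.toAdd, Nat.card_prod, Nat.card_prod, Nat.card_prod, Nat.card_eq_fintype_card, hF,
      Nat.card_eq_fintype_card, ZMod.card]
  refine h.no_seven ((QuotientGroup.mk' (Subgroup.center (SU 6 F 2))).comp f).range ?_ ?_
  · rintro _ ⟨x, rfl⟩
    rw [← map_mul]
    have : x * x = 1 := by
      apply Multiplicative.toAdd.injective
      have hz : ∀ a : F, a + a = 0 := fun a => by rw [← two_mul, h2, zero_mul]
      refine Prod.ext (hz _) (Prod.ext (hz _) (Prod.ext (hz _) ?_))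
      exact CharTwo.add_self_eq_zero _
    rw [this, map_one]
  · rw [← Nat.card_congr (MonoidHom.ofInjective hinj).toEquiv, hA]
    norm_num

end Cfsg.Agent.H357.EP
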