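import Cfsg.Agent.H357.EP.Pure34
import Cfsg.Agent.H357.EP.Uni62
import Cfsg.Agent.H357.EP.O8
import Cfsg.Agent.H545.EX.GFour
import Cfsg.Agent.H129.FE.Grp
import Cfsg.Agent.S1679
import Cfsg.Agent.H806.LsFiTwo
import Cfsg.Agent.H805.EPX.Rows

/-!
# S5745, the kill V27: rows (helper357)

* `inE6_f4` : subgroups of `F₄(q)`, `q` odd;
* `inE6_pi` : the factor `T` of a socle `N ≅ T ^ k`;
* `pow_le` : `|A| ^ k ≤ 64` for an elementary abelian 2-group `A → T` and `T ^ k ≤ E₆(q)`;
* `not_inE6_suz`, `no_fi22` : `Suz`, `Fi₂₂`;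
* `row_suz`, `row_fi22` : the fields `e6_3_Suz`, `e6_3_Fi22` of `H805.EPX.Rows`.
-/

set_option autoImplicit false

namespace Cfsg.Agent.H357.EP

open Cfsg Cfsg.Lie Matrix
open Cfsg.Agent.H209.EPX

section

variable {T : Type*} [Group T]

theorem inE6_f4 {F : Type} [Field F] [Fintype F] (ho : Odd (Fintype.card F)) (e : T ≃* chevF4.group F) : InE6 T :=
  ⟨F, inferInstance, inferInstance, ho, (H129.FE.toE6 F).comp e.toMonoidHom,
    (H129.FE.toE6_injective F).comp e.injective⟩

/-- the factor of a power -/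
theorem InE6.of_pow {k : ℕ} (h : InE6 (Fin k → T)) (i : Fin k) : InE6 T := by
  classical
  exact h.mono (MonoidHom.mulSingle (fun _ : Fin k => T) i) (Pi.mulSingle_injective (M := fun _ : Fin k => T) i)

/-- the socle `N ≅ T ^ k` -/
theorem InE6.pi {G : Type*} [Group G] (h : InE6 G) {N : Subgroup G} {k : ℕ} (e : N ≃* (Fin k → T)) :
    InE6 (Fin k → T) :=
  h.mono (N.subtype.comp e.symm.toMonoidHom) (Subtype.val_injective.comp e.symm.injective)

/-- the factor of the socle -/
theorem InE6.factor {G : Type*} [Group G] (h : InE6 G) {N : Subgroup G} {k : ℕ} (hk : 0 < k)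
    (e : N ≃* (Fin k → T)) : InE6 T := (h.pi e).of_pow ⟨0, hk⟩

/-- `|A| ≤ 64` for a homomorphism -/
theorem InE6.card_le_hom (h : InE6 T) {A : Type*} [Group A] [Finite A] (hA : ∀ x : A, x * x = 1) (f : A →* T)
    (hf : Function.Injective f) : Nat.card A ≤ 64 := by
  have : Finite f.range := Finite.of_equiv _ (MonoidHom.ofInjective hf).toEquiv
  rw [Nat.card_congr (MonoidHom.ofInjective hf).toEquiv]
  refine h.card_le f.range ?_
  rintro _ ⟨x, rfl⟩
  rw [← map_mul, hA, map_one]

/-- **the 2-rank of `T ^ k`** -/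
theorem InE6.pow_le {k : ℕ} (h : InE6 (Fin k → T)) {A : Type*} [Group A] [Finite A] (hA : ∀ x : A, x * x = 1)
    (f : A →* T) (hf : Function.Injective f) : Nat.card A ^ k ≤ 64 := by
  let g : (Fin k → A) →* (Fin k → T) := MonoidHom.pi fun i => f.comp (Pi.evalMonoidHom (fun _ : Fin k => A) i)
  have hg : Function.Injective g := by
    intro x y hxy
    funext i
    exact hf (congrFun hxy i)
  have h1 := h.card_le_hom (fun x => funext fun i => hA (x i)) g hg
  rwa [Nat.card_fun, Nat.card_eq_fintype_card (α := Fin k), Fintype.card_fin] at h1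

end

/-! ### Sporadic groups -/

/-- **`Suz` does not embed into `E₆(q)`, `²E₆(q)`, `F₄(q)`, `q` odd** -/
theorem not_inE6_suz {T : Type*} [Group T] (hT : Spor.IsoSuz T) : ¬ InE6 T := by
  intro h
  obtain ⟨e⟩ := hT
  obtain ⟨K, i1, i2, hK, ⟨e'⟩⟩ := Cfsg.Agent.S1679.result
  exact H545.EX.not_inE6 hK e' (h.mono (e.symm.toMonoidHom.comp (Subgroup.subtype _))
    (e.symm.injective.comp Subtype.val_injective))

section three

open Cfsg.Agent.ChevalleyStructure.E6Min Cfsg.Agent.ChevalleyStructure.E6Min.Tables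
  Cfsg.Agent.ChevalleyStructure.E6Min.Basic Cfsg.Agent.ChevalleyStructure.E6Min.Adjoint

theorem ad_injective {F : Type} [Field F] [CharP F 3] : Function.Injective (ad F) := by
  rw [injective_iff_map_eq_one]
  intro z hz
  have h1 := H689.scalar_of_comm (g := ((z : GL I27 F) : Matrix I27 I27 F))
    fun r hr => comm_B_of_ker hz (Sum.inr ⟨r, hr⟩)
  obtain ⟨c, hc⟩ : ∃ c : F, c = ((z : GL I27 F) : Matrix I27 I27 F) (dec 0) (dec 0) := ⟨_, rfl⟩
  rw [← hc] at h1
  have h3 := (H318.Four.RowE6.ker3 F z hz).2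
  have h4 : ((z ^ 3 : Zgrp F) : GL I27 F) = (z : GL I27 F) ^ 3 := rfl
  have h5 : ((z : GL I27 F) : Matrix I27 I27 F) ^ 3 = 1 := by
    rw [← Units.val_pow_eq_pow_val, ← h4, h3]
    rfl
  rw [h1, Matrix.diagonal_pow, ← Matrix.diagonal_one] at h5
  have h6 : c ^ 3 = 1 := congrFun (Matrix.diagonal_injective h5) (dec 0)
  have h7 : c = 1 := by
    have h8 : (c - 1) ^ 3 = 0 := by rw [sub_pow_char, h6, one_pow, sub_self]
    exact sub_eq_zero.1 (pow_eq_zero_iff (by norm_num) |>.1 h8)
  apply Subtype.ext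
  apply Units.ext
  rw [h1, h7]
  exact Matrix.diagonal_one

/-- a simple group whose nontrivial representations have degree at least `28` is not a subgroup of `E₆(3 ^ a)` -/
theorem no_ls {T : Type} [Group T] [Finite T] [IsSimpleGroup T] (hnc : ∃ a b : T, a * b ≠ b * a) {r : ℕ}
    (hls : H203.LS.LS.{0, 0, 0} r 28 T) {F : Type} [Field F] [CharP F 3] (hr : (r : F) ≠ 0) (f : T →* chevE6.group F)
    (hf : Function.Injective f) : False := by
  classical
  let g : T →* Zgrp F := (MulEquiv.ofBijective (ad F) ⟨ad_injective, ad_surjective⟩).symm.toMonoidHom.comp f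
  have hg : Function.Injective g :=
    (MulEquiv.ofBijective (ad F) ⟨ad_injective, ad_surjective⟩).symm.injective.comp hf
  let E : GL I27 F →* GL (Fin 27) F :=
    Units.map ((Matrix.reindexAlgEquiv F F (Fintype.equivFinOfCardEq card_I27) :
      Matrix I27 I27 F ≃ₐ[F] _) : Matrix I27 I27 F →* _)
  have hE : Function.Injective E :=
    Units.map_injective (Matrix.reindexAlgEquiv F F (Fintype.equivFinOfCardEq card_I27)).injective
  let ρ : T →* GL (Fin 27) F := (E.comp (Zgrp F).subtype).comp g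
  have hρ : Function.Injective ρ := (hE.comp Subtype.val_injective).comp hg
  have hcomm : commutator T = ⊤ := by
    rcases IsSimpleGroup.eq_bot_or_eq_top_of_normal (commutator T) inferInstance with h | h
    · exfalso
      obtain ⟨a, b, hab⟩ := hnc
      apply hab
      have h1 := (commutator_eq_bot_iff_center_eq_top T).1 h
      exact (Subgroup.mem_center_iff.1 (h1 ▸ Subgroup.mem_top b) a)
    · exact h
  have h1 := hls T (MonoidHom.id T) Function.surjective_id (by
    intro x hx
    rw [MonoidHom.mem_ker, MonoidHom.id_apply] at hx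
    rw [hx]
    exact one_mem _) hcomm F hr 27 ρ (by
    intro h
    obtain ⟨a, b, hab⟩ := hnc
    apply hab
    have h2 : ∀ x y : T, x = y := fun x y => hρ (by rw [h]; rfl)
    exact h2 _ _)
  omega

end three

/-- `Fi₂₂` is not a subgroup of `E₆(3 ^ a)` -/
theorem no_fi22 {F : Type} [Field F] [CharP F 3] {T : Type} [Group T] [Finite T] [IsSimpleGroup T]
    (hnc : ∃ a b : T, a * b ≠ b * a) (hT : Spor.IsoFi22 T) (f : T →* chevE6.group F) (hf : Function.Injective f) :
    False := by
  obtain ⟨e⟩ := hT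
  have : IsSimpleGroup Spor.Fi22 := by
    have : Nontrivial Spor.Fi22 := e.symm.toEquiv.nontrivial
    exact IsSimpleGroup.isSimpleGroup_of_surjective e.toMonoidHom e.surjective
  have : Finite Spor.Fi22 := Finite.of_equiv _ e.toEquiv
  have hnc' : ∃ g h : Spor.Fi22, g * h ≠ h * g := by
    obtain ⟨a, b, hab⟩ := hnc
    refine ⟨e a, e b, fun h => hab (e.injective ?_)⟩
    rw [map_mul, map_mul, h]
  have h2 : ((2 : ℕ) : F) ≠ 0 := by
    intro h
    have := (CharP.cast_eq_zero_iff F 3 2).1 h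
    omega
  exact no_ls hnc' (H806.Ls.fi22_ls_two hnc') h2 (f.comp e.symm.toMonoidHom) (hf.comp e.symm.injective)

open Cfsg.Agent.H805.EPX

theorem row_suz (F : Type) [Field F] [Fintype F] [IsSimpleGroup ↥(Lie.chevE6.group F)] (hF : Fintype.card F = 3) :
    NoRow (fun T _ => Spor.IsoSuz T) ↥(Lie.chevE6.group F) := by
  intro H N T _ e _ hT
  exact not_inE6_suz hT ((inE6 (F := F) (by rw [hF]; decide) (MulEquiv.refl _)).factor one_pos e)

theorem row_fi22 (F : Type) [Field F] [Fintype F] [IsSimpleGroup ↥(Lie.chevE6.group F)] (hF : Fintype.card F = 3) :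
    NoRow (fun T _ => Spor.IsoFi22 T) ↥(Lie.chevE6.group F) := by
  intro H N T _ e h hT
  have h3 : CharP F 3 := by
    have := CharP.exists F
    obtain ⟨p, hp⟩ := this
    have h0 : ((3 : ℕ) : F) = 0 := by rw [← hF]; exact Nat.cast_card_eq_zero F
    have hp3 : p ∣ 3 := (CharP.cast_eq_zero_iff F p 3).1 h0
    rcases (Nat.dvd_prime Nat.prime_three).1 hp3 with rfl | rfl
    · exact absurd (CharP.char_is_prime F 1) (by norm_num)
    · exact hp
  classical
  let f : T →* ↥(Lie.chevE6.group F) := (N.subtype.comp e.symm.toMonoidHom).comp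
    (MonoidHom.mulSingle (fun _ : Fin 1 => T) 0)
  have hf : Function.Injective f :=
    (Subtype.val_injective.comp e.symm.injective).comp (Pi.mulSingle_injective (M := fun _ : Fin 1 => T) 0)
  have : IsSimpleGroup T := h.simple
  have : Finite T := Finite.of_injective f hf
  exact no_fi22 h.nab hT f hf

end Cfsg.Agent.H357.EP
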